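import Cfsg.Agent.H989.DG.Semi

/-!
# Closure arguments for the orthogonal groups of plus type (helper989, TEAM GEN, S4180)

`V = ⟨e0, f0⟩ ⊥ ⟨ε, ε'⟩ ⊥ ⟨η, η'⟩ ⊥ (K ⊕ K*)`.
-/

set_option autoImplicit false
set_option linter.unusedSectionVars false

namespace Cfsg.Agent.H989.DG

open QuadraticMap Cfsg.Agent.LieClassical.OrthCore Cfsg.Agent.LieClassical.OrthTrans
  Cfsg.Agent.LieClassical.OrthSimple Cfsg.Agent.ClassicalGeometry.OrthAutBasic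
  Cfsg.Agent.ClassicalGeometry.OrthSemi Cfsg.Agent.ClassicalGeometry.OrthAut1
  Cfsg.Agent.H887.SiegelMethod Cfsg.Agent.H137 Cfsg.Agent.H989.OutOrth.Basic

variable {F V : Type*} [Field F] [AddCommGroup V] [Module F V] {Q : QuadraticForm F V}
  {H : Subgroup (V ≃ₗ[F] V)}

/-- `w` maps the line of `u` to the line of `u'` -/
def Ln (w : Gam Q) (u u' : V) : Prop := ∃ a : F, a ≠ 0 ∧ w.1 u = a • u'

theorem Sg.ln {w : Gam Q} (hw : Nm H w) {u y u' y' : V} (h : Sg Q H u y) (hu : Ln w u u') (hy : Ln w y y') :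
    Sg Q H u' y' := by
  obtain ⟨a, ha, hu⟩ := hu
  obtain ⟨b, hb, hy⟩ := hy
  exact h.shift hw ha hb hu hy

theorem Ts_ln {w : Gam Q} (hw : Nm H w) {u y u' y' : V} (hu0 : Q u = 0) (hu0' : Q u' = 0)
    (h : y ∈ Ts Q H u) (hu : Ln w u u') (hy : Ln w y y') : y' ∈ Ts Q H u' := by
  obtain ⟨a, ha, hu⟩ := hu
  obtain ⟨b, hb, hy⟩ := hy
  exact Ts_shift hw hu0 hu0' h ha hb hu hy

/-- The frame. -/
structure Frame {K : Type*} [Field K] [Algebra F K] (Q : QuadraticForm F V) (P : SPair Q K)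
    (e0 f0 u u' v v' : V) : Prop where
  hu : Hyp2 Q e0 f0 u u'
  hv : Hyp2 Q e0 f0 v v'
  huv : Hyp2 Q u u' v v'
  pe : P.Perp e0
  pf : P.Perp f0
  pu : P.Perp u
  pu' : P.Perp u'
  pv : P.Perp v
  pv' : P.Perp v'
  span : ∀ x, P.Perp x → x = polar Q f0 x • e0 + polar Q e0 x • f0 + polar Q u' x • u + polar Q u x • u' +
    polar Q v' x • v + polar Q v x • v'

section

variable {K : Type*} [Field K] [Algebra F K] {P : SPair Q K} {e0 f0 u u' v v' : V}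

theorem Frame.polar_proj (_Fr : Frame Q P e0 f0 u u' v v') {a : V} (ha : P.Perp a) (x : V) :
    polar Q a (x - P.e (P.pe x) - P.f (P.pf x)) = polar Q a x := by
  rw [polar_sub_right, polar_sub_right, P.polar_e' ha, P.polar_f' ha, sub_zero, sub_zero]

/-- The final step. -/
theorem Frame.full (Fr : Frame Q P e0 f0 u u' v v') (hfe : ∀ z, P.e z ∈ Ts Q H u) (hff : ∀ z, P.f z ∈ Ts Q H u)
    (h1 : e0 ∈ Ts Q H u) (h2 : f0 ∈ Ts Q H u) (h3 : v ∈ Ts Q H u) (h4 : v' ∈ Ts Q H u) (x : V)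
    (hx : polar Q u x = 0) : x ∈ Ts Q H u := by
  have h5 := Fr.span _ (P.perp_sub x)
  rw [Fr.polar_proj Fr.pe, Fr.polar_proj Fr.pf, Fr.polar_proj Fr.pu, Fr.polar_proj Fr.pu',
    Fr.polar_proj Fr.pv, Fr.polar_proj Fr.pv', hx, zero_smul, add_zero] at h5
  have h6 : x = P.e (P.pe x) + P.f (P.pf x) + (x - P.e (P.pe x) - P.f (P.pf x)) := by abel
  rw [h6, h5]
  have hs := self_mem_Ts (H := H) Fr.hu.hy.left
  refine add_mem (add_mem (hfe _) (hff _)) ?_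
  refine add_mem (add_mem (add_mem (add_mem ?_ ?_) ?_) ?_) ?_
  · exact Submodule.smul_mem _ _ h1
  · exact Submodule.smul_mem _ _ h2
  · exact Submodule.smul_mem _ _ hs
  · exact Submodule.smul_mem _ _ h3
  · exact Submodule.smul_mem _ _ h4

theorem Frame.full' (Fr : Frame Q P e0 f0 u u' v v') (hfe : ∀ z, P.e z ∈ Ts Q H u') (hff : ∀ z, P.f z ∈ Ts Q H u')
    (h1 : e0 ∈ Ts Q H u') (h2 : f0 ∈ Ts Q H u') (h3 : v ∈ Ts Q H u') (h4 : v' ∈ Ts Q H u') (x : V)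
    (hx : polar Q u' x = 0) : x ∈ Ts Q H u' := by
  have h5 := Fr.span _ (P.perp_sub x)
  rw [Fr.polar_proj Fr.pe, Fr.polar_proj Fr.pf, Fr.polar_proj Fr.pu, Fr.polar_proj Fr.pu',
    Fr.polar_proj Fr.pv, Fr.polar_proj Fr.pv', hx, zero_smul, add_zero] at h5
  have h6 : x = P.e (P.pe x) + P.f (P.pf x) + (x - P.e (P.pe x) - P.f (P.pf x)) := by abel
  rw [h6, h5]
  have hs := self_mem_Ts (H := H) Fr.hu.hy.right
  refine add_mem (add_mem (hfe _) (hff _)) ?_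
  refine add_mem (add_mem (add_mem (add_mem ?_ ?_) ?_) ?_) ?_
  · exact Submodule.smul_mem _ _ h1
  · exact Submodule.smul_mem _ _ h2
  · exact Submodule.smul_mem _ _ hs
  · exact Submodule.smul_mem _ _ h3
  · exact Submodule.smul_mem _ _ h4

/-- **Closure I.** -/
theorem Frame.closure1 (Fr : Frame Q P e0 f0 u u' v v') (hG : Good Q) {x1 x2 y1 y2 : K} (hx1 : x1 ≠ 0)
    (hy1 : y1 ≠ 0) {w : Gam Q} (hw : Nm H w)
    (L1 : Ln w e0 (P.f y1)) (L2 : Ln w (P.f y1) f0) (L3 : Ln w f0 (P.e x1)) (L4 : Ln w (P.e x1) e0)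
    (L5 : Ln w u u') (L6 : Ln w u' u)
    (L7 : (Ln w (P.e x2) v ∧ Ln w (P.f y2) v') ∨ (Ln w (P.e x2) v' ∧ Ln w (P.f y2) v))
    (hE : FamE Q H P u') (hF : FamF Q H P u') (h0 : Sg Q H e0 u) : E Q ≤ H := by
  have qe : Q e0 = 0 := Fr.hu.hx.left
  have qf : Q f0 = 0 := Fr.hu.hx.right
  have qu : Q u = 0 := Fr.hu.hy.left
  have qu' : Q u' = 0 := Fr.hu.hy.right
  have s1 : Sg Q H (P.f y1) u' := h0.ln hw L1 L5
  have s2 : Sg Q H f0 u := s1.ln hw L2 L6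
  have s3 : Sg Q H (P.e x1) u' := s2.ln hw L3 L5
  have fe : ∀ z, P.e z ∈ Ts Q H u' := hE _ hx1 (s3.swap qu')
  have ff : ∀ z, P.f z ∈ Ts Q H u' := hF _ hy1 (s1.swap qu')
  have key : ∀ {a b : V}, Q a = 0 → Q b = 0 → (∀ z, P.e z ∈ Ts Q H a) → (∀ z, P.f z ∈ Ts Q H a) → Ln w a b →
      e0 ∈ Ts Q H b ∧ f0 ∈ Ts Q H b ∧ v ∈ Ts Q H b ∧ v' ∈ Ts Q H b := by
    intro a b ha hb he hf L
    refine ⟨Ts_ln hw ha hb (he _) L L4, Ts_ln hw ha hb (hf _) L L2, ?_, ?_⟩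
    · rcases L7 with ⟨h, h'⟩ | ⟨h, h'⟩
      · exact Ts_ln hw ha hb (he _) L h
      · exact Ts_ln hw ha hb (hf _) L h'
    · rcases L7 with ⟨h, h'⟩ | ⟨h, h'⟩
      · exact Ts_ln hw ha hb (hf _) L h'
      · exact Ts_ln hw ha hb (he _) L h
  obtain ⟨a1, a2, a3, a4⟩ := key qu' qu fe ff L6
  have puu : polar Q u' u ≠ 0 := by rw [Fr.hu.hy.pair']; exact one_ne_zero
  have pef : polar Q e0 f0 ≠ 0 := by rw [Fr.hu.hx.pair]; exact one_ne_zero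
  have b1 : ∀ z, P.e z ∈ Ts Q H e0 := fun z =>
    comm_full (P.Qe z) (P.polar_e Fr.pe z) Fr.hu.xy' (P.polar_e Fr.pu z)
      ((mem_Ts_comm qu' (P.Qe z)).1 (fe z)) h0 puu
  have b2 : ∀ z, P.f z ∈ Ts Q H e0 := fun z =>
    comm_full (P.Qf z) (P.polar_f Fr.pe z) Fr.hu.xy' (P.polar_f Fr.pu z)
      ((mem_Ts_comm qu' (P.Qf z)).1 (ff z)) h0 puu
  have hsu : Sg Q H u f0 := Sg.of_Ts qu a2
  have pue : polar Q u e0 = 0 := Fr.hu.swap.1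
  have c1 : ∀ z, P.e z ∈ Ts Q H u := fun z =>
    comm_full (P.Qe z) (P.polar_e Fr.pu z) pue (P.polar_e Fr.pf z)
      ((mem_Ts_comm qe (P.Qe z)).1 (b1 z)) hsu pef
  have c2 : ∀ z, P.f z ∈ Ts Q H u := fun z =>
    comm_full (P.Qf z) (P.polar_f Fr.pu z) pue (P.polar_f Fr.pf z)
      ((mem_Ts_comm qe (P.Qf z)).1 (b2 z)) hsu pef
  obtain ⟨d1, d2, d3, d4⟩ := key qu qu' c1 c2 L5
  exact E_le_of_Ts hG qu qu' (by rw [Fr.hu.hy.pair]; exact one_ne_zero) (Fr.full c1 c2 a1 a2 a3 a4)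
    (Fr.full' fe ff d1 d2 d3 d4)

/-- **Closure II.** -/
theorem Frame.closure2 (Fr : Frame Q P e0 f0 u u' v v') (hG : Good Q) {x1 y1 : K} (hx1 : x1 ≠ 0)
    (hy1 : y1 ≠ 0) {w r : Gam Q} (hw : Nm H w) (hr : Nm H r)
    (L1 : Ln w e0 (P.e x1)) (L2 : Ln w (P.e x1) v) (L3 : Ln w v e0)
    (L1' : Ln w f0 (P.f y1)) (L2' : Ln w (P.f y1) v') (L3' : Ln w v' f0)
    (L5 : Ln w u u') (L6 : Ln w u' u) (R1 : Ln r e0 f0) (R2 : Ln r u u)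
    (hE : FamE Q H P u') (hF : FamF Q H P u') (hE' : FamE Q H P u) (hF' : FamF Q H P u)
    (h0 : Sg Q H e0 u) : E Q ≤ H := by
  have qu : Q u = 0 := Fr.hu.hy.left
  have qu' : Q u' = 0 := Fr.hu.hy.right
  have s1 : Sg Q H (P.e x1) u' := h0.ln hw L1 L5
  have s2 : Sg Q H v u := s1.ln hw L2 L6
  have s3 : Sg Q H e0 u' := s2.ln hw L3 L5
  have s4 : Sg Q H (P.e x1) u := s3.ln hw L1 L6
  have t0 : Sg Q H f0 u := h0.ln hr R1 R2
  have t1 : Sg Q H (P.f y1) u' := t0.ln hw L1' L5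
  have t2 : Sg Q H v' u := t1.ln hw L2' L6
  have t3 : Sg Q H f0 u' := t2.ln hw L3' L5
  have t4 : Sg Q H (P.f y1) u := t3.ln hw L1' L6
  have c1 : ∀ z, P.e z ∈ Ts Q H u := hE' _ hx1 (s4.swap qu)
  have c2 : ∀ z, P.f z ∈ Ts Q H u := hF' _ hy1 (t4.swap qu)
  have d1 : ∀ z, P.e z ∈ Ts Q H u' := hE _ hx1 (s1.swap qu')
  have d2 : ∀ z, P.f z ∈ Ts Q H u' := hF _ hy1 (t1.swap qu')
  have a3 : v ∈ Ts Q H u := Ts_ln hw qu' qu (d1 x1) L6 L2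
  have a3' : v ∈ Ts Q H u' := Ts_ln hw qu qu' (c1 x1) L5 L2
  have a4 : v' ∈ Ts Q H u := Ts_ln hw qu' qu (d2 y1) L6 L2'
  have a4' : v' ∈ Ts Q H u' := Ts_ln hw qu qu' (c2 y1) L5 L2'
  exact E_le_of_Ts hG qu qu' (by rw [Fr.hu.hy.pair]; exact one_ne_zero)
    (Fr.full c1 c2 (Ts_ln hw qu' qu a3' L6 L3) (Ts_ln hw qu' qu a4' L6 L3') a3 a4)
    (Fr.full' d1 d2 (Ts_ln hw qu qu' a3 L5 L3) (Ts_ln hw qu qu' a4 L5 L3') a3' a4')

end

end Cfsg.Agent.H989.DG
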