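import Cfsg.Agent.H989.DG.Core

/-!
# Monomial semisimilitudes (helper989, TEAM GEN, S4180)
-/

set_option autoImplicit false
set_option linter.unusedSectionVars false

namespace Cfsg.Agent.H989.DG

open QuadraticMap Cfsg.Agent.LieClassical.OrthCore Cfsg.Agent.LieClassical.OrthTrans
  Cfsg.Agent.LieClassical.OrthSimple Cfsg.Agent.ClassicalGeometry.OrthAutBasic
  Cfsg.Agent.ClassicalGeometry.OrthSemi Cfsg.Agent.ClassicalGeometry.OrthAut1
  Cfsg.Agent.H887.SiegelMethod Cfsg.Agent.H137 Cfsg.Agent.H989.OutOrth.Basic Subgroup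

variable {F V : Type*} [Field F] [AddCommGroup V] [Module F V] {Q : QuadraticForm F V}

theorem isSS_mul {M N : Gam Q} {a b : F} (h : IsSS Q (RingEquiv.refl F) a M.1)
    (h' : IsSS Q (RingEquiv.refl F) b N.1) : IsSS Q (RingEquiv.refl F) (a * b) (M * N).1 := h.mul h'

theorem isSS_inv {M : Gam Q} {a : F} (h : IsSS Q (RingEquiv.refl F) a M.1) :
    IsSS Q (RingEquiv.refl F) a⁻¹ (M⁻¹).1 := h.inv

theorem isSS_congr {M : Gam Q} {a b : F} (h : IsSS Q (RingEquiv.refl F) a M.1) (e : a = b) :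
    IsSS Q (RingEquiv.refl F) b M.1 := e ▸ h

theorem Ln.mul {w w' : Gam Q} {a b c : V} (h' : Ln w' b c) (h : Ln w a b) : Ln (w' * w) a c := by
  obtain ⟨s, hs, h⟩ := h
  obtain ⟨t, ht, h'⟩ := h'
  obtain ⟨σ, d, hd⟩ := w'.2
  refine ⟨σ s * t, mul_ne_zero (by simpa using hs) ht, ?_⟩
  show w'.1 (w.1 a) = _
  rw [h, hd.smul, h', smul_smul]

theorem Ln.of_eq {w : Gam Q} {a b : V} (h : w.1 a = b) : Ln w a b := ⟨1, one_ne_zero, by rw [h, one_smul]⟩

/-- Weyl elements -/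
noncomputable def NN (Q : QuadraticForm F V) (x x' y y' : V) : Gam Q :=
  ofO Q ⟨nn Q x x' y y', E_le_O (nn_mem_E x x' y y')⟩

theorem out_NN (x x' y y' : V) : out Q (NN Q x x' y y') = 1 := out_ofO_of_mem (nn_mem_E _ _ _ _)

theorem out_tt (a b : V) : out Q (tt Q a b) = 1 := out_ofO_of_mem (T_mem_E _ _)

theorem NN_x {x x' y y' : V} (h : Hyp2 Q x x' y y') : Ln (NN Q x x' y y') x y := Ln.of_eq (nn_x h)

theorem NN_x' {x x' y y' : V} (h : Hyp2 Q x x' y y') : Ln (NN Q x x' y y') x' y' := Ln.of_eq (nn_x' h)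

theorem NN_y {x x' y y' : V} (h : Hyp2 Q x x' y y') : Ln (NN Q x x' y y') y x := by
  refine ⟨-1, neg_ne_zero.2 one_ne_zero, ?_⟩
  rw [neg_smul, one_smul]
  exact nn_y h

theorem NN_y' {x x' y y' : V} (h : Hyp2 Q x x' y y') : Ln (NN Q x x' y y') y' x' := by
  refine ⟨-1, neg_ne_zero.2 one_ne_zero, ?_⟩
  rw [neg_smul, one_smul]
  exact nn_y' h

theorem NN_fix {x x' y y' a : V} (h : Hyp2 Q x x' y y') (h1 : polar Q x a = 0) (h2 : polar Q x' a = 0)
    (h3 : polar Q y a = 0) (h4 : polar Q y' a = 0) : Ln (NN Q x x' y y') a a :=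
  Ln.of_eq (nn_fix h h1 h2 h3 h4)

theorem rf_l {a b : V} (h : Hyp Q a b) (hab : Q (a + b) ≠ 0) : Ln (rf (a + b) hab) a b := by
  refine ⟨-1, neg_ne_zero.2 one_ne_zero, ?_⟩
  rw [rf_apply, refl_apply, Q_add, h.left, h.right, h.pair, polar_add_left, h.pair', h.polar_left]
  simp

theorem rf_r {a b : V} (h : Hyp Q a b) (hab : Q (a + b) ≠ 0) : Ln (rf (a + b) hab) b a := by
  refine ⟨-1, neg_ne_zero.2 one_ne_zero, ?_⟩
  rw [rf_apply, refl_apply, Q_add, h.left, h.right, h.pair, polar_add_left, h.pair, h.polar_right]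
  simp

theorem rf_fix {a b x : V} (hab : Q (a + b) ≠ 0) (h1 : polar Q a x = 0) (h2 : polar Q b x = 0) :
    Ln (rf (a + b) hab) x x := by
  refine Ln.of_eq ?_
  rw [rf_apply, refl_apply, polar_add_left, h1, h2, add_zero, mul_zero, zero_smul, sub_zero]

theorem Q_hyp {a b : V} (h : Hyp Q a b) : Q (a + b) = 1 := by
  rw [Q_add, h.left, h.right, h.pair]; simp

theorem Q_hyp_ne {a b : V} (h : Hyp Q a b) : Q (a + b) ≠ 0 := by
  rw [Q_hyp h]; exact one_ne_zero

/-- The isometries of the plane `⟨v, v'⟩`. -/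
def TT (Q : QuadraticForm F V) (v v' : V) : Subgroup (Gam Q) where
  carrier := {t | IsSS Q (RingEquiv.refl F) 1 t.1 ∧ ∀ x, polar Q v x = 0 → polar Q v' x = 0 → t.1 x = x}
  mul_mem' := by
    rintro a b ⟨ha, ha'⟩ ⟨hb, hb'⟩
    refine ⟨isSS_congr (isSS_mul ha hb) (one_mul _), fun x h1 h2 => ?_⟩
    show a.1 (b.1 x) = x
    rw [hb' x h1 h2, ha' x h1 h2]
  one_mem' := ⟨⟨one_ne_zero, fun _ _ => rfl, fun _ _ => rfl, fun _ => by rw [one_mul]; rfl⟩, fun _ _ _ => rfl⟩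
  inv_mem' := by
    rintro a ⟨ha, ha'⟩
    refine ⟨isSS_congr (isSS_inv ha) inv_one, fun x h1 h2 => ?_⟩
    show a.1⁻¹ x = x
    have h3 := inv_apply a.1 x
    rwa [ha' x h1 h2] at h3

section

variable {K : Type*} [Field K] [Algebra F K] {P : SPair Q K} {e0 f0 u u' v v' : V}

theorem perp_of {x1 y1 : K} (t11 : Algebra.trace F K (x1 * y1) = 1) {x : V} (h : ∀ k, polar Q (P.e k) x = 0)
    (h' : ∀ k, polar Q (P.f k) x = 0) : P.Perp x := by
  have key : ∀ c : K, (∀ k, Algebra.trace F K (k * c) = 0) → c = 0 := by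
    intro c hc
    by_contra h0
    have h1 := hc (x1 * y1 * c⁻¹)
    rw [mul_assoc, inv_mul_cancel₀ h0, mul_one, t11] at h1
    exact one_ne_zero h1
  exact ⟨key _ fun k => by rw [← P.pe_spec]; exact h' k, key _ fun k => by rw [← P.pf_spec]; exact h k⟩

theorem Frame.tt_lines (Fr : Frame Q P e0 f0 u u' v v') {x1 y1 : K} (t11 : Algebra.trace F K (x1 * y1) = 1)
    {t : Gam Q} (ht : t ∈ TT Q v v') : (Ln t v v ∧ Ln t v' v') ∨ (Ln t v v' ∧ Ln t v' v) := by
  obtain ⟨h1, h2⟩ := ht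
  have hyp : Hyp Q v v' := Fr.hv.hy
  have key : ∀ x, (∀ y, polar Q v y = 0 → polar Q v' y = 0 → polar Q y x = 0) →
      t.1 x = polar Q v' (t.1 x) • v + polar Q v (t.1 x) • v' := by
    intro x hx
    have h3 : ∀ y, polar Q v y = 0 → polar Q v' y = 0 → polar Q y (t.1 x) = 0 := by
      intro y hy hy'
      have h4 := h1.polar y x
      rw [h2 y hy hy', hx y hy hy', map_zero, mul_zero] at h4
      exact h4
    have hP : P.Perp (t.1 x) := perp_of t11 (fun k => h3 _ (P.polar_e' Fr.pv k) (P.polar_e' Fr.pv' k))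
      (fun k => h3 _ (P.polar_f' Fr.pv k) (P.polar_f' Fr.pv' k))
    have h5 := Fr.span _ hP
    obtain ⟨a1, a2, a3, a4⟩ := Fr.hv.swap
    obtain ⟨b1, b2, b3, b4⟩ := Fr.huv.swap
    rw [h3 e0 a1 a2, h3 f0 a3 a4, h3 u b1 b2, h3 u' b3 b4] at h5
    simpa using h5
  have hv1 := key v fun y hy _ => by rw [polar_comm]; exact hy
  have hv2 := key v' fun y _ hy => by rw [polar_comm]; exact hy
  have q1 : Q (t.1 v) = 0 := by rw [h1.form, hyp.left, map_zero, mul_zero]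
  have q2 : Q (t.1 v') = 0 := by rw [h1.form, hyp.right, map_zero, mul_zero]
  have p12 : polar Q (t.1 v) (t.1 v') = 1 := by rw [h1.polar, hyp.pair, map_one, mul_one]
  have line : ∀ x, Q x = 0 → ∀ a b : F, x = a • v + b • v' → a = 0 ∨ b = 0 := by
    intro x hx a b e
    rw [e, Q_add, QuadraticMap.map_smul, QuadraticMap.map_smul, hyp.left, hyp.right, polar_smul_left,
      polar_smul_right, hyp.pair] at hx
    simpa using hx
  obtain ⟨a, ha⟩ : ∃ a, a = polar Q v' (t.1 v) := ⟨_, rfl⟩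
  obtain ⟨b, hb⟩ : ∃ b, b = polar Q v (t.1 v) := ⟨_, rfl⟩
  obtain ⟨c, hc⟩ : ∃ c, c = polar Q v' (t.1 v') := ⟨_, rfl⟩
  obtain ⟨d, hd⟩ : ∃ d, d = polar Q v (t.1 v') := ⟨_, rfl⟩
  rw [← ha, ← hb] at hv1
  rw [← hc, ← hd] at hv2
  have p12' : a * d + b * c = 1 := by
    rw [hv1, hv2, polar_add_left, polar_add_right, polar_add_right, polar_smul_left, polar_smul_left,
      polar_smul_left, polar_smul_left, polar_smul_right, polar_smul_right, polar_smul_right, polar_smul_right,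
      hyp.pair, hyp.pair', hyp.polar_left, hyp.polar_right] at p12
    simpa using p12
  rcases line _ q1 a b hv1 with h | h
  · right
    subst h
    have hbc : b * c = 1 := by simpa using p12'
    have hb0 : b ≠ 0 := by rintro rfl; simp at hbc
    have hc0 : c ≠ 0 := by rintro rfl; simp at hbc
    rcases line _ q2 c d hv2 with h | h
    · exact absurd h hc0
    · subst h
      exact ⟨⟨b, hb0, by rw [hv1, zero_smul, zero_add]⟩, ⟨c, hc0, by rw [hv2, zero_smul, add_zero]⟩⟩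
  · left
    subst h
    have hbc : a * d = 1 := by simpa using p12'
    have ha0 : a ≠ 0 := by rintro rfl; simp at hbc
    have hd0 : d ≠ 0 := by rintro rfl; simp at hbc
    rcases line _ q2 c d hv2 with h | h
    · subst h
      exact ⟨⟨a, ha0, by rw [hv1, zero_smul, add_zero]⟩, ⟨d, hd0, by rw [hv2, zero_smul, zero_add]⟩⟩
    · exact absurd h hd0

/-- A linear similitude fixing the frame is trivial. -/
theorem Frame.eq_one (Fr : Frame Q P e0 f0 u u' v v') {M : Gam Q} {c : F}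
    (h : IsSS Q (RingEquiv.refl F) c M.1) (h1 : M.1 e0 = e0) (h2 : M.1 f0 = f0) (h3 : M.1 u = u)
    (h4 : M.1 u' = u') (h5 : M.1 v = v) (h6 : M.1 v' = v') (h7 : ∀ k, M.1 (P.e k) = P.e k)
    (h8 : ∀ k, M.1 (P.f k) = P.f k) : M = 1 := by
  apply Subtype.ext
  ext x
  show M.1 x = x
  have hs := Fr.span _ (P.perp_sub x)
  obtain ⟨x0, hx0⟩ : ∃ x0, x0 = x - P.e (P.pe x) - P.f (P.pf x) := ⟨_, rfl⟩
  rw [← hx0] at hs
  have hx : x = P.e (P.pe x) + P.f (P.pf x) + x0 := by rw [hx0]; abel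
  have hsm : ∀ (a : F) (y : V), M.1 (a • y) = a • M.1 y := h.smul
  have hM0 : M.1 x0 = x0 := by
    rw [hs]
    simp only [h.add, hsm, h1, h2, h3, h4, h5, h6]
  calc M.1 x = M.1 (P.e (P.pe x) + P.f (P.pf x) + x0) := by rw [← hx]
    _ = P.e (P.pe x) + P.f (P.pf x) + x0 := by rw [h.add, h.add, h7, h8, hM0]
    _ = x := hx.symm

end

end Cfsg.Agent.H989.DG
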